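import Cfsg.Agent.Fus.OddVanish.LiftGroup

/-!
For a fully normalized `T`-centric `Q` and an element `x` centralizing `N_T(Q)`, the displacement of
`x` by lifts of a group `M` of automorphisms to `Q C_S(Q)` is a cocycle on `M`: a transfer argument
shows that the lifts in the subgroup generated by `N_T(Q)` and the `p'`-elements are unambiguous
on `x`.
-/

set_option autoImplicit false

namespace CfsgLib.OddVanish

open Cfsg Cfsg.FusionSystem CfsgLib.Fus CfsgLib.NormalCent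

variable {Ω : Type*} [Group Ω] {S T : Subgroup Ω} {F : Cfsg.FusionSystem S}
  {E : Cfsg.FusionSystem T} {p : ℕ} [Finite S] [Fact p.Prime]

/-- `N_0 = Q C_S(Q)` is receptive for a fully centralized `Q`. -/
theorem receptive_sup_centralizer (hS : IsPGroup p S) (hF : F.IsSaturated p) {Q : Subgroup Ω}
    (hfc : F.IsFullyCentralized Q) : F.IsReceptive (Q ⊔ centralizerIn S Q) := by
  have hN₀S : Q ⊔ centralizerIn S Q ≤ S := sup_le hfc.1 (centralizerIn_le Q)
  refine receptive_of_fullyCentralized hS hF (isFullyCentralized_of_centric ⟨hN₀S, ?_⟩)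
  rintro R ⟨φ, hφ, rfl⟩
  intro c hc
  obtain ⟨f, hf, hfe⟩ := exists_mor hφ
  have hQN : Q ≤ Q ⊔ centralizerIn S Q := le_sup_left
  have hWN : centralizerIn S Q ≤ Q ⊔ centralizerIn S Q := le_sup_right
  obtain ⟨Q', hQ', hQ'S⟩ := hf.exists_img hQN
  have hfW : ∀ w ∈ centralizerIn S Q, f w ∈ centralizerIn S Q' := fun w hw =>
    map_centralizerIn hf hQN hQ' (hWN hw) hw
  have hconj : F.IsConj Q Q' := (hf.restrict hQN).isConj hQ'
  have : Finite (centralizerIn S Q') := finite_of_le (centralizerIn_le Q')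
  have hc' : c ∈ centralizerIn S Q' := ⟨hc.1, fun y hy => by
    obtain ⟨q, hq, rfl⟩ := (show y ∈ f '' (Q : Set Ω) from hQ' ▸ hy)
    exact hc.2 _ ⟨⟨q, hQN hq⟩, (hfe ⟨q, hQN hq⟩).symm⟩⟩
  have hinj : Function.Injective
      (fun w : centralizerIn S Q => (⟨f w, hfW w w.2⟩ : centralizerIn S Q')) :=
    fun a b hab => Subtype.ext (hf.injOn (hWN a.2) (hWN b.2) (congrArg Subtype.val hab))
  obtain ⟨w, hw⟩ := (hinj.bijective_of_nat_card_le (hfc.2 Q' hconj)).2 ⟨c, hc'⟩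
  exact ⟨⟨w, hWN w.2⟩, ((hfe ⟨w, hWN w.2⟩).symm).trans (congrArg Subtype.val hw)⟩

omit [Finite S] [Fact p.Prime] in
theorem mem_normalizer_sup_centralizer (hE : E.IsNormalIn F p) {Q : Subgroup Ω} (hQ : Q ≤ S)
    {t : Ω} (ht : t ∈ normalizerIn T Q) :
    t ∈ Subgroup.normalizer ((Q ⊔ centralizerIn S Q : Subgroup Ω) : Set Ω) := by
  have hN₀S : Q ⊔ centralizerIn S Q ≤ S := sup_le hQ (centralizerIn_le Q)
  have key : ∀ s ∈ normalizerIn S Q, ∀ y ∈ Q ⊔ centralizerIn S Q,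
      s * y * s⁻¹ ∈ Q ⊔ centralizerIn S Q := fun s hs y hy =>
    mem_of_sup (mor_conj hN₀S hs.1 (F := F)) le_rfl
      (fun q hq => Subgroup.mem_sup_left (conj_mem_of_normalizer hs.2 hq))
      (fun w hw => Subgroup.mem_sup_right (le_normalizer_centralizerIn hs hw)) hy
  have hTS := le_S hE
  refine Subgroup.mem_normalizer_iff.2 fun y => ⟨key t ⟨hTS ht.1, ht.2⟩ y, fun hy => ?_⟩
  have h1 := key t⁻¹ ⟨S.inv_mem (hTS ht.1), Subgroup.inv_mem _ ht.2⟩ _ hy
  convert h1 using 1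
  group

omit [Finite S] [Fact p.Prime] in
theorem conj_mem_liftGroup (hE : E.IsNormalIn F p) {Q : Subgroup Ω} (hQ : TCentric F T Q)
    {M : Subgroup (MulAut Q)} (hUM : Cfsg.autInducedBy T Q ≤ M) {t : Ω}
    (ht : t ∈ normalizerIn T Q) :
    conjAut (mem_normalizer_sup_centralizer hE (hQ.1.trans (le_S hE)) ht) ∈ liftGroup F Q M := by
  have hTS := le_S hE
  have hQS := hQ.1.trans hTS
  refine ⟨autInducedBy_le_autGroup F (sup_le hQS (centralizerIn_le Q))
    (conjAut_mem_autInducedBy _ (hTS ht.1)),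
    ⟨conjAut ht.2, hUM (conjAut_mem_autInducedBy ht.2 ht.1), fun q => rfl⟩, fun w hw => ?_⟩
  show (w : Ω)⁻¹ * (t * w * t⁻¹) ∈ Q
  have hT : (w : Ω)⁻¹ * (t * w * t⁻¹) ∈ T := by
    have h1 := T.mul_mem (conj_mem_T hE (S.inv_mem (centralizerIn_le Q hw)) ht.1) (T.inv_mem ht.1)
    convert h1 using 1
    group
  exact tcentric_id hQ hTS ⟨hT, (Subgroup.mul_mem _ (Subgroup.inv_mem _ hw)
    (le_normalizer_centralizerIn ⟨hTS ht.1, ht.2⟩ hw)).2⟩

/-- Displacement of `x` by the lifts of `M`. -/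
theorem exists_cocycle (hS : IsPGroup p S) (hE : E.IsNormalIn F p) {Q : Subgroup Ω}
    (hQ : TCentric F T Q) (hfn : F.IsFullyNormalized Q) (M : Subgroup (MulAut Q))
    (hUM : Cfsg.autInducedBy T Q ≤ M)
    (hlift : ∀ g ∈ M, LiftsQ F Q g)
    (hidx : ((Cfsg.autInducedBy T Q).subgroupOf M).index.Coprime p)
    {x : Ω} (hxW : x ∈ centralizerIn S Q) (hxT : ∀ t ∈ normalizerIn T Q, t * x = x * t) :
    ∃ c : M → Ω, (∀ g, c g ∈ Q ⊓ centralizerIn S Q) ∧
      (∀ (g h : M) (hh : c h ∈ Q), c (g * h) = c g * (((g : MulAut Q) ⟨c h, hh⟩ : Q) : Ω)) ∧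
      (∀ g : M, (g : MulAut Q) ∈ Cfsg.autInducedBy T Q → c g = 1) ∧
      (∀ g : M, ∃ γ : Ω → Ω, Mor F (Q ⊔ centralizerIn S Q) γ ∧
        (∀ q : Q, γ q = (((g : MulAut Q) q : Q) : Ω)) ∧
        (∀ w ∈ centralizerIn S Q, w⁻¹ * γ w ∈ Q) ∧ γ x = x * c g) ∧
      (∀ g : M, ∀ β, Canon F E p Q β → (∀ q : Q, β q = (((g : MulAut Q) q : Q) : Ω)) →
        β x = x * c g) := by
  classical
  have hF := hE.1.2.1
  have hTS := le_S hE
  have hQS : Q ≤ S := hQ.1.trans hTS
  have hN₀S : Q ⊔ centralizerIn S Q ≤ S := sup_le hQS (centralizerIn_le Q)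
  have : Finite (Q ⊔ centralizerIn S Q : Subgroup Ω) := finite_of_le hN₀S
  have := finite_mulAut (Q ⊔ centralizerIn S Q : Subgroup Ω)
  have : Finite Q := finite_of_le hQS
  have := finite_mulAut Q
  have hfc := fullyCentralized_of_fullyNormalized hS hF hfn
  have hrec := receptive_sup_centralizer hS hF hfc
  let gens : Set (MulAut (Q ⊔ centralizerIn S Q : Subgroup Ω)) :=
    {γ | γ ∈ liftGroup F Q M ∧ ((∃ t ∈ normalizerIn T Q,
      ∀ y : (Q ⊔ centralizerIn S Q : Subgroup Ω),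
        ((γ y : (Q ⊔ centralizerIn S Q : Subgroup Ω)) : Ω) = t * y * t⁻¹) ∨
      (orderOf γ).Coprime p)}
  let G : Subgroup (MulAut (Q ⊔ centralizerIn S Q : Subgroup Ω)) := Subgroup.closure gens
  have hGL : G ≤ liftGroup F Q M := (Subgroup.closure_le _).2 fun γ hγ => hγ.1
  -- restriction to `Q`
  have hres : ∀ γ : G, ∃! g : M, ∀ q : Q,
      (((γ : MulAut (Q ⊔ centralizerIn S Q : Subgroup Ω)) (Subgroup.inclusion le_sup_left q) :
        (Q ⊔ centralizerIn S Q : Subgroup Ω)) : Ω) = (((g : MulAut Q) q : Q) : Ω) := by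
    intro γ
    obtain ⟨g, hg, hge⟩ := (hGL γ.2).2.1
    exact ⟨⟨g, hg⟩, hge, fun h hh => Subtype.ext (MulEquiv.ext fun q =>
      Subtype.ext ((hh q).symm.trans (hge q)))⟩
  let r : G → M := fun γ => (hres γ).exists.choose
  have hr : ∀ (γ : G) (q : Q),
      (((γ : MulAut (Q ⊔ centralizerIn S Q : Subgroup Ω)) (Subgroup.inclusion le_sup_left q) :
        (Q ⊔ centralizerIn S Q : Subgroup Ω)) : Ω) = (((r γ : MulAut Q) q : Q) : Ω) :=
    fun γ => (hres γ).exists.choose_spec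
  have hr_uniq : ∀ (γ : G) (g : M), (∀ q : Q,
      (((γ : MulAut (Q ⊔ centralizerIn S Q : Subgroup Ω)) (Subgroup.inclusion le_sup_left q) :
        (Q ⊔ centralizerIn S Q : Subgroup Ω)) : Ω) = (((g : MulAut Q) q : Q) : Ω)) → r γ = g :=
    fun γ g h => (hres γ).unique (hr γ) h
  have hrmul : ∀ γ δ : G, r (γ * δ) = r γ * r δ := fun γ δ => hr_uniq _ _ fun q => by
    rw [Subgroup.coe_mul, MulAut.mul_apply, show (δ : MulAut (Q ⊔ centralizerIn S Q : Subgroup Ω))
      (Subgroup.inclusion le_sup_left q) = Subgroup.inclusion le_sup_left ((r δ : MulAut Q) q) from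
      Subtype.ext (hr δ q)]
    exact hr γ _
  let res : G →* M := MonoidHom.mk' r hrmul
  set xN : (Q ⊔ centralizerIn S Q : Subgroup Ω) := ⟨x, Subgroup.mem_sup_right hxW⟩
  have hconjG : ∀ t (ht : t ∈ normalizerIn T Q),
      conjAut (mem_normalizer_sup_centralizer hE hQS ht) ∈ G := fun t ht =>
    Subgroup.subset_closure ⟨conj_mem_liftGroup hE hQ hUM ht, Or.inl ⟨t, ht, fun _ => rfl⟩⟩
  -- `G` covers `M`
  let U₀ : Subgroup M := (Cfsg.autInducedBy T Q).subgroupOf M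
  have hsurj : res.range = ⊤ := by
    have hUp : IsPGroup p U₀ :=
      (isPGroup_autInducedBy (hS.to_le hTS) Q).comap_of_injective _ (Subgroup.subtype_injective _)
    have hU₀ : ¬ p ∣ U₀.index := fun h =>
      (Fact.out : p.Prime).coprime_iff_not_dvd.1 (Nat.Coprime.symm hidx) h
    refine eq_top_of_sylow_of_coprime (hUp.toSylow hU₀) ?_ ?_
    · rintro ⟨g, hgM⟩ hg
      obtain ⟨t, ht, hte⟩ := mem_autInducedBy_iff.1 (show g ∈ Cfsg.autInducedBy T Q from hg)
      have htN : t ∈ normalizerIn T Q := ⟨ht, mem_normalizer_of_aut hte⟩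
      exact ⟨⟨_, hconjG t htN⟩, hr_uniq _ _ fun q => (hte q).symm⟩
    · rintro ⟨g, hgM⟩ hg
      rw [Subgroup.orderOf_mk] at hg
      obtain ⟨f, hf, hfg, hfc⟩ := hlift g hgM
      obtain ⟨⟨b, hbF⟩, hb⟩ := exists_aut hf le_rfl (LiftsQ.mapsTo hf hfg hfc)
      have hbL : b ∈ liftGroup F Q M :=
        ⟨hbF, ⟨g, hgM, fun q => (hb _).trans (hfg q)⟩, fun w hw => by
          rw [hb w]
          exact hfc w hw⟩
      obtain ⟨k, n, hn0, hn, hbn, hk⟩ := exists_coprime_exponent b hg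
      have hbk : b ^ k ∈ G := Subgroup.subset_closure ⟨Subgroup.pow_mem _ hbL k,
        Or.inr (hn.coprime_dvd_left (orderOf_dvd_of_pow_eq_one hbn))⟩
      refine ⟨⟨_, hbk⟩, hr_uniq _ _ fun q => ?_⟩
      show ((((b : MulAut (Q ⊔ centralizerIn S Q : Subgroup Ω)) ^ k)
        (Subgroup.inclusion le_sup_left q) : (Q ⊔ centralizerIn S Q : Subgroup Ω)) : Ω) = _
      rw [← iterate_eq_aut (f := f) (fun y => (hb y).symm) k (Subgroup.inclusion le_sup_left q)]
      show f^[k] (q : Ω) = _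
      rw [iterate_eq_aut hfg k q, hk g rfl]
  -- the displacement on the preimage of `Aut_T(Q)`
  let K : Subgroup (Q ⊔ centralizerIn S Q : Subgroup Ω) :=
    { carrier := {z | (z : Ω) ∈ Q ⊓ centralizerIn S Q ∧
        ∀ γ : G, (γ : MulAut (Q ⊔ centralizerIn S Q : Subgroup Ω)) z = z}
      one_mem' := ⟨Subgroup.one_mem _, fun γ => map_one _⟩
      mul_mem' := fun {a b} ha hb => ⟨Subgroup.mul_mem _ ha.1 hb.1, fun γ => by
        rw [map_mul, ha.2, hb.2]⟩
      inv_mem' := fun {a} ha => ⟨Subgroup.inv_mem _ ha.1, fun γ => by rw [map_inv, ha.2]⟩ }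
  let : CommGroup K := { (inferInstance : Group K) with
    mul_comm := fun a b => Subtype.ext (Subtype.ext (comm_of_mem a.2.1.1 b.2.1.2)) }
  have hKp : IsPGroup p K := (hS.to_le hN₀S).to_subgroup K
  let Hh : Subgroup G := U₀.comap res
  have hdecomp : ∀ δ : Hh, ∃ t ∈ normalizerIn T Q, ∃ w : (Q ⊔ centralizerIn S Q : Subgroup Ω),
      (w : Ω) ∈ centralizerIn S Q ∧ ∀ y : (Q ⊔ centralizerIn S Q : Subgroup Ω),
        ((((δ : G) : MulAut (Q ⊔ centralizerIn S Q : Subgroup Ω)) y :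
          (Q ⊔ centralizerIn S Q : Subgroup Ω)) : Ω) = t * (w * y * (w : Ω)⁻¹) * t⁻¹ := by
    intro δ
    obtain ⟨t, ht, hte⟩ := mem_autInducedBy_iff.1 (show ((res (δ : G) : M) : MulAut Q) ∈
      Cfsg.autInducedBy T Q from δ.2)
    have htN : t ∈ normalizerIn T Q := ⟨ht, mem_normalizer_of_aut hte⟩
    set τ : G := ⟨_, hconjG t htN⟩
    have hτ : res τ = res (δ : G) := hr_uniq _ _ fun q => (hte q).symm
    have h1 : res (τ⁻¹ * (δ : G)) = 1 := by rw [map_mul, map_inv, hτ, inv_mul_cancel]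
    obtain ⟨w, hw, hwe⟩ := lift_kernel_inner hS hF hfc (hGL (τ⁻¹ * (δ : G)).2) fun q => by
      rw [hr, show r (τ⁻¹ * (δ : G)) = 1 from h1]
      rfl
    refine ⟨t, htN, w, hw, fun y => ?_⟩
    have h2 : ((δ : G) : MulAut (Q ⊔ centralizerIn S Q : Subgroup Ω)) y =
        (τ : MulAut (Q ⊔ centralizerIn S Q : Subgroup Ω))
          (((τ⁻¹ * (δ : G) : G) : MulAut (Q ⊔ centralizerIn S Q : Subgroup Ω)) y) := by
      rw [Subgroup.coe_mul, InvMemClass.coe_inv, MulAut.mul_apply, MulAut.apply_inv_self]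
    rw [h2, hwe]
    rfl
  have hdisp : ∀ δ : Hh, ∃ k : K,
      ((δ : G) : MulAut (Q ⊔ centralizerIn S Q : Subgroup Ω)) xN =
        xN * (k : (Q ⊔ centralizerIn S Q : Subgroup Ω)) := by
    intro δ
    obtain ⟨t, htN, w, hw, hwe⟩ := hdecomp δ
    have hfix : ∀ γ : G, (γ : MulAut (Q ⊔ centralizerIn S Q : Subgroup Ω))
        (xN⁻¹ * (w * xN * w⁻¹)) = xN⁻¹ * (w * xN * w⁻¹) :=
      fun γ => lift_fix_comm (hGL γ.2) hQS xN w hxW hw
    have h1 := congrArg Subtype.val (hfix ⟨_, hconjG t htN⟩)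
    have h2 : t * ((w : Ω) * x * (w : Ω)⁻¹) * t⁻¹ = x * (x⁻¹ * ((w : Ω) * x * (w : Ω)⁻¹)) := by
      have h3 : t * (x⁻¹ * ((w : Ω) * x * (w : Ω)⁻¹)) * t⁻¹ =
          x⁻¹ * ((w : Ω) * x * (w : Ω)⁻¹) := h1
      calc t * ((w : Ω) * x * (w : Ω)⁻¹) * t⁻¹
          = (t * x * t⁻¹) * (t * (x⁻¹ * ((w : Ω) * x * (w : Ω)⁻¹)) * t⁻¹) := by group
        _ = x * (x⁻¹ * ((w : Ω) * x * (w : Ω)⁻¹)) := by
          rw [h3, hxT t htN, mul_inv_cancel_right]
    have hval : ((((δ : G) : MulAut (Q ⊔ centralizerIn S Q : Subgroup Ω)) xN :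
        (Q ⊔ centralizerIn S Q : Subgroup Ω)) : Ω) = x * (x⁻¹ * ((w : Ω) * x * (w : Ω)⁻¹)) :=
      (hwe xN).trans h2
    refine ⟨⟨xN⁻¹ * (w * xN * w⁻¹), ⟨?_, Subgroup.mul_mem _ (Subgroup.inv_mem _ hxW)
      (Subgroup.mul_mem _ (Subgroup.mul_mem _ hw hxW) (Subgroup.inv_mem _ hw))⟩, hfix⟩,
      Subtype.ext hval⟩
    have h4 := (hGL (δ : G).2).2.2 xN hxW
    rw [hval] at h4
    simpa using h4
  have hstep : ∀ (δ ε : Hh) (a b : K),
      ((δ : G) : MulAut (Q ⊔ centralizerIn S Q : Subgroup Ω)) xN =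
        xN * (a : (Q ⊔ centralizerIn S Q : Subgroup Ω)) →
      ((ε : G) : MulAut (Q ⊔ centralizerIn S Q : Subgroup Ω)) xN =
        xN * (b : (Q ⊔ centralizerIn S Q : Subgroup Ω)) →
      (((δ * ε : Hh) : G) : MulAut (Q ⊔ centralizerIn S Q : Subgroup Ω)) xN =
        xN * ((a * b : K) : (Q ⊔ centralizerIn S Q : Subgroup Ω)) := fun δ ε a b ha hb => by
    rw [Subgroup.coe_mul, Subgroup.coe_mul, MulAut.mul_apply, hb, map_mul, ha, b.2.2 (δ : G),
      Subgroup.coe_mul, mul_assoc]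
  let hfun : Hh →* K := MonoidHom.mk' (fun δ => (hdisp δ).choose) fun δ ε =>
    Subtype.ext (mul_left_cancel (a := xN) ((hdisp (δ * ε)).choose_spec.symm.trans
      (hstep δ ε _ _ (hdisp δ).choose_spec (hdisp ε).choose_spec)))
  have hhfun : ∀ δ : Hh, ((δ : G) : MulAut (Q ⊔ centralizerIn S Q : Subgroup Ω)) xN =
      xN * (hfun δ : (Q ⊔ centralizerIn S Q : Subgroup Ω)) :=
    fun δ => (hdisp δ).choose_spec
  have hHidx : Hh.index.Coprime p := by
    have : Hh.index = U₀.index := by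
      rw [show Hh = U₀.comap res from rfl, Subgroup.index_comap, hsurj,
        Subgroup.relIndex_top_right]
    rw [this]
    exact hidx
  -- the conjugates of `N_T(Q)` fix `x`
  have hgens : ∀ g ∈ ((↑) : G → MulAut (Q ⊔ centralizerIn S Q : Subgroup Ω)) ⁻¹' gens,
      (orderOf g).Coprime p ∨
        ∀ (e : G) (i : ℕ) (hm : e⁻¹ * g ^ i * e ∈ Hh), hfun ⟨_, hm⟩ = 1 := by
    rintro g ⟨-, ⟨t, ht, hte⟩ | hco⟩
    swap
    · exact Or.inl (by rwa [← Subgroup.orderOf_coe])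
    refine Or.inr fun e i hm => ?_
    obtain ⟨t', ht', w, hw, hwe⟩ := hdecomp ⟨_, hm⟩
    set s := t ^ i with hs
    have hsN : s ∈ normalizerIn T Q := Subgroup.pow_mem _ ht i
    have hsN₀ := mem_normalizer_sup_centralizer hE hQS hsN
    have hpow : ∀ (j : ℕ) (y : (Q ⊔ centralizerIn S Q : Subgroup Ω)),
        ((((g : MulAut (Q ⊔ centralizerIn S Q : Subgroup Ω)) ^ j) y :
          (Q ⊔ centralizerIn S Q : Subgroup Ω)) : Ω) = t ^ j * (y : Ω) * (t ^ j)⁻¹ := by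
      intro j
      induction j with
      | zero => intro y; simp
      | succ j ihj =>
        intro y
        rw [pow_succ', MulAut.mul_apply, hte, ihj]
        group
    obtain ⟨f, hf, hfe, hfN⟩ := exists_mor_of_aut hN₀S
      ⟨((e⁻¹ : G) : MulAut (Q ⊔ centralizerIn S Q : Subgroup Ω)), (hGL (e⁻¹ : G).2).1⟩
    have hδ : ∀ y : (Q ⊔ centralizerIn S Q : Subgroup Ω),
        ((((e⁻¹ * g ^ i * e : G) : MulAut (Q ⊔ centralizerIn S Q : Subgroup Ω))
          (((e⁻¹ : G) : MulAut (Q ⊔ centralizerIn S Q : Subgroup Ω)) y) :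
            (Q ⊔ centralizerIn S Q : Subgroup Ω)) : Ω) = f (s * (y : Ω) * s⁻¹) := by
      intro y
      rw [Subgroup.coe_mul, Subgroup.coe_mul, SubmonoidClass.coe_pow, InvMemClass.coe_inv,
        MulAut.mul_apply, MulAut.mul_apply, MulAut.apply_inv_self, hs, ← hpow]
      exact (hfe _).symm
    let Kx : Subgroup Ω :=
      { carrier := {l | l ∈ normalizerIn S (Q ⊔ centralizerIn S Q) ∧ ∃ u ∈ S,
          ∀ y ∈ Q ⊔ centralizerIn S Q, f (l * y * l⁻¹) = u * f y * u⁻¹}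
        one_mem' := ⟨Subgroup.one_mem _, 1, S.one_mem, fun y _ => by simp⟩
        mul_mem' := by
          rintro l m ⟨hl, u, hu, hue⟩ ⟨hm, v, hv, hve⟩
          refine ⟨Subgroup.mul_mem _ hl hm, u * v, S.mul_mem hu hv, fun y hy => ?_⟩
          rw [show l * m * y * (l * m)⁻¹ = l * (m * y * m⁻¹) * l⁻¹ by group,
            hue _ (conj_mem_of_normalizer hm.2 hy), hve y hy]
          group
        inv_mem' := by
          rintro l ⟨hl, u, hu, hue⟩
          refine ⟨Subgroup.inv_mem _ hl, u⁻¹, S.inv_mem hu, fun y hy => ?_⟩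
          have h1 := hue _ (conj_mem_of_normalizer (Subgroup.inv_mem _ hl.2) hy)
          rw [show l * (l⁻¹ * y * l⁻¹⁻¹) * l⁻¹ = y by group] at h1
          rw [h1]
          group }
    have hsK : s ∈ Kx := by
      refine ⟨⟨hTS hsN.1, hsN₀⟩, t' * w,
        S.mul_mem (hTS ht'.1) (centralizerIn_le Q hw), fun y hy => ?_⟩
      rw [show f (s * y * s⁻¹) = _ from (hδ ⟨y, hy⟩).symm,
        show f y = _ from hfe ⟨y, hy⟩, hwe]
      group
    have hNK : Q ⊔ centralizerIn S Q ≤ Kx := fun l hl =>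
      ⟨le_normalizerIn hN₀S hl, f l, hf.mem hl, fun y hy => hf.map_conj hl hy⟩
    have hsL : s ∈ Q ⊔ centralizerIn S Q ⊔ Subgroup.zpowers s :=
      Subgroup.mem_sup_right (Subgroup.mem_zpowers s)
    obtain ⟨ψ, hψ, hψf⟩ := hf.exists_ext hfN hrec
      (L := Q ⊔ centralizerIn S Q ⊔ Subgroup.zpowers s) le_sup_left
      (sup_le (le_normalizerIn hN₀S) (Subgroup.zpowers_le.2 ⟨hTS hsN.1, hsN₀⟩))
      fun l hl => ((sup_le hNK (Subgroup.zpowers_le.2 hsK) : _ ≤ Kx) hl).2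
    have hψQ : ψ '' (Q : Set Ω) = Q :=
      image_eq (hψ.restrict (le_sup_left.trans le_sup_left)) fun q hq => by
        rw [hψf q (Subgroup.mem_sup_left hq),
          show f q = _ from hfe (Subgroup.inclusion le_sup_left ⟨q, hq⟩), hr]
        exact SetLike.coe_mem _
    have hψs : ψ s ∈ normalizerIn T Q :=
      ⟨mor_mem_T hE hψ hsL hsN.1,
        (hψ.map_normalizer (le_sup_left.trans le_sup_left) hψQ hsL hsN.2).2⟩
    set y : (Q ⊔ centralizerIn S Q : Subgroup Ω) :=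
      (e : MulAut (Q ⊔ centralizerIn S Q : Subgroup Ω)) xN
    have hy : ((e⁻¹ : G) : MulAut (Q ⊔ centralizerIn S Q : Subgroup Ω)) y = xN := by
      rw [InvMemClass.coe_inv]
      exact MulAut.inv_apply_self _ _ _
    have hfy : f y = x := by rw [hfe, hy]
    have h1 := hδ y
    rw [hy, ← hψf _ (conj_mem_of_normalizer hsN₀ y.2),
      hψ.map_conj hsL (Subgroup.mem_sup_left y.2), hψf _ y.2, hfy, hxT _ hψs,
      mul_inv_cancel_right] at h1
    have h2 := hhfun ⟨_, hm⟩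
    rw [show ((⟨_, hm⟩ : Hh) : G) = e⁻¹ * g ^ i * e from rfl] at h2
    rw [show (((e⁻¹ * g ^ i * e : G) : MulAut (Q ⊔ centralizerIn S Q : Subgroup Ω)) xN) = xN from
      Subtype.ext h1, left_eq_mul] at h2
    exact Subtype.ext h2
  have hkey : ∀ κ : G, res κ = 1 → (κ : MulAut (Q ⊔ centralizerIn S Q : Subgroup Ω)) xN = xN := by
    intro κ hκ
    obtain ⟨w, hw, hwe⟩ := lift_kernel_inner hS hF hfc (hGL κ.2) fun q => by
      rw [hr, show r κ = 1 from hκ]
      rfl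
    have hcen : ∀ g : G, g⁻¹ * κ * g = κ := by
      intro g
      have hr1 : res (g⁻¹ * κ * g) = 1 := by
        rw [map_mul, map_mul, hκ, mul_one, map_inv, inv_mul_cancel]
      obtain ⟨b, hb, hbe⟩ := lift_move (hGL (g⁻¹ : G).2) hQS w hw
      refine Subtype.ext (MulEquiv.ext fun y => ?_)
      apply Subtype.ext
      obtain ⟨f, hf, hfe, -⟩ := exists_mor_of_aut hN₀S
        ⟨((g⁻¹ * κ * g : G) : MulAut (Q ⊔ centralizerIn S Q : Subgroup Ω)),
          (hGL (g⁻¹ * κ * g : G).2).1⟩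
      rw [show _ = f (y : Ω) from (hfe y).symm, hwe y]
      simp only [Subgroup.coe_mul, InvMemClass.coe_inv]
      refine mor_eqOn_sup (A := Q) (B := centralizerIn S Q) hf
        (mor_conj hN₀S (centralizerIn_le Q hw)) le_rfl (fun q hq => ?_) (fun v hv => ?_) y y.2
      · rw [show f q = _ from hfe (Subgroup.inclusion le_sup_left ⟨q, hq⟩), hr,
          show r _ = 1 from hr1, ← hw.2 q hq, mul_inv_cancel_right]
        rfl
      · rw [show f v = _ from hfe ⟨v, Subgroup.mem_sup_right hv⟩]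
        simp only [Subgroup.coe_mul, InvMemClass.coe_inv, MulAut.mul_apply, hwe, map_mul, map_inv,
          MulAut.inv_apply_self]
        rw [show ((((g : MulAut (Q ⊔ centralizerIn S Q : Subgroup Ω)))⁻¹) w :
          (Q ⊔ centralizerIn S Q : Subgroup Ω)).1 = (w : Ω) * b from hbe]
        exact centralizer_comm_conj hb.1 hv
    have hκH : κ ∈ Hh := by
      show res κ ∈ U₀
      rw [hκ]
      exact one_mem _
    have hone := eq_one_of_transfer hKp hfun hHidx _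
      (Subgroup.closure_closure_coe_preimage (k := gens)) hgens hκH hcen
    have h2 := hhfun ⟨κ, hκH⟩
    rw [hone, OneMemClass.coe_one, mul_one] at h2
    exact h2
  -- the cocycle
  have hsec : ∀ g : M, ∃ γ : G, res γ = g := fun g =>
    MonoidHom.mem_range.1 (hsurj ▸ Subgroup.mem_top g)
  choose σ hσ using hsec
  have hwell : ∀ γ δ : G, res γ = res δ →
      (γ : MulAut (Q ⊔ centralizerIn S Q : Subgroup Ω)) xN =
        (δ : MulAut (Q ⊔ centralizerIn S Q : Subgroup Ω)) xN := by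
    intro γ δ h
    have h1 := hkey (δ⁻¹ * γ) (by rw [map_mul, map_inv, h, inv_mul_cancel])
    rw [Subgroup.coe_mul, InvMemClass.coe_inv, MulAut.mul_apply] at h1
    conv_rhs => rw [← h1]
    rw [MulAut.apply_inv_self]
  refine ⟨fun g => x⁻¹ * ((σ g : MulAut (Q ⊔ centralizerIn S Q : Subgroup Ω)) xN :
    (Q ⊔ centralizerIn S Q : Subgroup Ω)), ?_, ?_, ?_, ?_, ?_⟩
  · intro g
    obtain ⟨z, hz, hze⟩ := lift_move (hGL (σ g).2) hQS xN hxW
    show x⁻¹ * _ ∈ _
    rw [hze, show (xN : Ω) = x from rfl, inv_mul_cancel_left]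
    exact hz
  · intro g h hh
    have h1 := hwell (σ (g * h)) (σ g * σ h) (by rw [hσ, map_mul, hσ, hσ])
    show x⁻¹ * _ = _
    rw [h1, Subgroup.coe_mul, MulAut.mul_apply]
    set d : Q := ⟨_, hh⟩
    have e : (σ h : MulAut (Q ⊔ centralizerIn S Q : Subgroup Ω)) xN =
        xN * Subgroup.inclusion le_sup_left d := Subtype.ext (mul_inv_cancel_left x _).symm
    rw [e, map_mul, Subgroup.coe_mul, hr, show r (σ g) = g from hσ g, mul_assoc]
  · intro g hg
    obtain ⟨t, ht, hte⟩ := mem_autInducedBy_iff.1 hg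
    have htN : t ∈ normalizerIn T Q := ⟨ht, mem_normalizer_of_aut hte⟩
    have h1 := hwell (σ g) ⟨_, hconjG t htN⟩
      (by rw [hσ]; exact (hr_uniq _ _ fun q => (hte q).symm).symm)
    show x⁻¹ * _ = _
    rw [h1]
    show x⁻¹ * (t * x * t⁻¹) = 1
    rw [hxT t htN, mul_inv_cancel_right, inv_mul_cancel]
  · intro g
    obtain ⟨f, hf, hfe, -⟩ := exists_mor_of_aut hN₀S
      ⟨(σ g : MulAut (Q ⊔ centralizerIn S Q : Subgroup Ω)), (hGL (σ g).2).1⟩
    refine ⟨f, hf, fun q => ?_, fun w hw => ?_, ?_⟩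
    · rw [show f q = _ from hfe (Subgroup.inclusion le_sup_left q), hr,
        show r (σ g) = g from hσ g]
    · rw [show f w = _ from hfe ⟨w, Subgroup.mem_sup_right hw⟩]
      exact (hGL (σ g).2).2.2 ⟨w, Subgroup.mem_sup_right hw⟩ hw
    · rw [show f x = _ from hfe xN, mul_inv_cancel_left]
  · intro g β hβ hβg
    obtain ⟨⟨b, hbF⟩, hb⟩ := exists_aut hβ.mor le_rfl fun y hy => hβ.map_dom hy
    have hbL : b ∈ liftGroup F Q M :=
      ⟨hbF, ⟨g, g.2, fun q => (hb _).trans (hβg q)⟩, fun w hw => by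
        rw [hb w]
        exact hβ.comm w hw⟩
    obtain ⟨n, hn0, hn, hper⟩ := hβ.per
    have hord : (orderOf b).Coprime p := by
      refine hn.coprime_dvd_left (orderOf_dvd_of_pow_eq_one ?_)
      refine MulEquiv.ext fun y => Subtype.ext ?_
      rw [← iterate_eq_aut (f := β) (fun y => (hb y).symm) n y]
      exact hper y y.2
    have h1 := hwell (σ g) ⟨b, Subgroup.subset_closure ⟨hbL, Or.inr hord⟩⟩
      (by rw [hσ]; exact (hr_uniq _ _ fun q => (hb _).trans (hβg q)).symm)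
    show β x = x * (x⁻¹ * _)
    rw [h1, mul_inv_cancel_left]
    exact (hb xN).symm

end CfsgLib.OddVanish
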