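import Cfsg.Agent.Fus.NormalCentralizer.Contains
import Cfsg.Agent.Fus.Centric
import Mathlib.GroupTheory.Transfer

/-!
The group of lifts to `Q C_S(Q)` of a group of automorphisms of a fully centralized `T`-centric `Q`:
the kernel of restriction is inner, and the lifts fix the commutators of `C_S(Q)`.
-/

set_option autoImplicit false

namespace CfsgLib.OddVanish

open Cfsg Cfsg.FusionSystem CfsgLib.Fus CfsgLib.NormalCent

/-- A homomorphism to an abelian `p`-group killed on the conjugates of the generators is trivial on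
the central elements of its domain, the index being prime to `p`. -/
theorem eq_one_of_transfer {G K : Type*} [Group G] [Finite G] [CommGroup K] {p : ℕ} [Fact p.Prime]
    (hK : IsPGroup p K) {H : Subgroup G} (h : H →* K) (hidx : H.index.Coprime p) (gens : Set G)
    (hgen : Subgroup.closure gens = ⊤)
    (hg : ∀ g ∈ gens, (orderOf g).Coprime p ∨
      ∀ (r : G) (i : ℕ) (hm : r⁻¹ * g ^ i * r ∈ H), h ⟨_, hm⟩ = 1)
    {κ : G} (hκ : κ ∈ H) (hcen : ∀ g : G, g⁻¹ * κ * g = κ) : h ⟨κ, hκ⟩ = 1 := by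
  classical
  have hT : ∀ g : G, MonoidHom.transfer h g = 1 := by
    intro g
    refine Subgroup.closure_induction (p := fun g _ => MonoidHom.transfer h g = 1) ?_ (map_one _)
      (fun a b _ _ h1 h2 => by rw [map_mul, h1, h2, one_mul])
      (fun a _ h1 => by rw [map_inv, h1, inv_one]) (hgen ▸ Subgroup.mem_top g)
    intro a ha
    rcases hg a ha with hco | hconj
    · obtain ⟨i, hi⟩ := hK (MonoidHom.transfer h a)
      exact orderOf_eq_one_iff.1 (Nat.Coprime.eq_one_of_dvd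
        ((hco.coprime_dvd_left (orderOf_map_dvd _ _)).pow_right i) (orderOf_dvd_of_pow_eq_one hi))
    · have : Fintype (Quotient (MulAction.orbitRel (Subgroup.zpowers a) (G ⧸ H))) :=
        Fintype.ofFinite _
      rw [MonoidHom.transfer_eq_prod_quotient_orbitRel_zpowers_quot]
      exact Finset.prod_eq_one fun q _ => hconj _ _ _
  have hkey : ∀ (k : ℕ) (g₀ : G), g₀⁻¹ * κ ^ k * g₀ ∈ H → g₀⁻¹ * κ ^ k * g₀ = κ ^ k := by
    intro k g₀ _
    have h2 := congrArg (fun z => z ^ k) (hcen g₀)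
    have h3 := conj_pow (i := k) (a := g₀⁻¹) (b := κ)
    rw [inv_inv] at h3
    exact h3.symm.trans h2
  have h1 := MonoidHom.transfer_eq_pow h κ hkey
  rw [hT, show (⟨κ ^ H.index, MonoidHom.transfer_eq_pow_aux κ hkey⟩ : H) = ⟨κ, hκ⟩ ^ H.index from rfl,
    map_pow] at h1
  obtain ⟨i, hi⟩ := hK (h ⟨κ, hκ⟩)
  exact orderOf_eq_one_iff.1 (Nat.eq_one_of_dvd_coprimes (hidx.pow_right i)
    (orderOf_dvd_of_pow_eq_one h1.symm) (orderOf_dvd_of_pow_eq_one hi))

variable {Ω : Type*} [Group Ω] {S T : Subgroup Ω} {F : Cfsg.FusionSystem S}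
  {E : Cfsg.FusionSystem T} {p : ℕ}

theorem mor_eqOn_sup {N A B : Subgroup Ω} {f g : Ω → Ω} (hf : Mor F N f) (hg : Mor F N g)
    (hle : A ⊔ B ≤ N) (hA : ∀ x ∈ A, f x = g x) (hB : ∀ x ∈ B, f x = g x) :
    ∀ x ∈ A ⊔ B, f x = g x := by
  let K : Subgroup Ω :=
    { carrier := {y | y ∈ N ∧ f y = g y}
      one_mem' := ⟨N.one_mem, (map_one_of_mor hf).trans (map_one_of_mor hg).symm⟩
      mul_mem' := fun {a b} ha hb =>
        ⟨N.mul_mem ha.1 hb.1, by rw [hf.map_mul ha.1 hb.1, hg.map_mul ha.1 hb.1, ha.2, hb.2]⟩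
      inv_mem' := fun {a} ha => ⟨N.inv_mem ha.1, by rw [hf.map_inv ha.1, hg.map_inv ha.1, ha.2]⟩ }
  exact fun x hx => ((sup_le (fun y hy => ⟨hle (Subgroup.mem_sup_left hy), hA y hy⟩)
    (fun y hy => ⟨hle (Subgroup.mem_sup_right hy), hB y hy⟩) : A ⊔ B ≤ K) hx).2

theorem centralizer_comm_conj {Q : Subgroup Ω} {w c b : Ω} (hb : b ∈ Q)
    (hc : c ∈ centralizerIn S Q) :
    (w * b) * c * (w * b)⁻¹ = w * c * w⁻¹ := by
  rw [mul_inv_rev, show w * b * c * (b⁻¹ * w⁻¹) = w * (b * c) * b⁻¹ * w⁻¹ by group,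
    comm_of_mem hb hc]
  group

/-- A lift of an element of `M` to `Q C_S(Q)` moving each `w` in `C_S(Q)` inside `wQ`. -/
def IsLift (F : Cfsg.FusionSystem S) (Q : Subgroup Ω) (M : Subgroup (MulAut Q))
    (γ : MulAut (Q ⊔ centralizerIn S Q : Subgroup Ω)) : Prop :=
  γ ∈ F.autGroup (Q ⊔ centralizerIn S Q) ∧
    (∃ g ∈ M, ∀ q : Q, ((γ (Subgroup.inclusion le_sup_left q) :
      (Q ⊔ centralizerIn S Q : Subgroup Ω)) : Ω) = ((g q : Q) : Ω)) ∧
    ∀ w : (Q ⊔ centralizerIn S Q : Subgroup Ω), (w : Ω) ∈ centralizerIn S Q →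
      (w : Ω)⁻¹ * ((γ w : (Q ⊔ centralizerIn S Q : Subgroup Ω)) : Ω) ∈ Q

/-- The group of lifts. -/
def liftGroup (F : Cfsg.FusionSystem S) (Q : Subgroup Ω) (M : Subgroup (MulAut Q)) :
    Subgroup (MulAut (Q ⊔ centralizerIn S Q : Subgroup Ω)) where
  carrier := {γ | IsLift F Q M γ}
  one_mem' := ⟨Subgroup.one_mem _, ⟨1, M.one_mem, fun q => rfl⟩, fun w _ => by simp⟩
  mul_mem' := fun {a b} ha hb => by
    obtain ⟨haF, ⟨g, hg, hge⟩, hac⟩ := ha
    obtain ⟨hbF, ⟨h, hh, hhe⟩, hbc⟩ := hb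
    refine ⟨Subgroup.mul_mem _ haF hbF, ⟨g * h, M.mul_mem hg hh, fun q => ?_⟩, fun w hw => ?_⟩
    · rw [MulAut.mul_apply, show b (Subgroup.inclusion le_sup_left q) =
        Subgroup.inclusion le_sup_left (h q) from Subtype.ext (hhe q)]
      exact hge (h q)
    · set d : Q := ⟨_, hbc w hw⟩
      have e : b w = w * Subgroup.inclusion le_sup_left d :=
        Subtype.ext (mul_inv_cancel_left (w : Ω) _).symm
      rw [MulAut.mul_apply, e, map_mul, Subgroup.coe_mul, ← mul_assoc, hge d]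
      exact Q.mul_mem (hac w hw) (g d).2
  inv_mem' := fun {a} ha => by
    obtain ⟨haF, ⟨g, hg, hge⟩, hac⟩ := ha
    refine ⟨Subgroup.inv_mem _ haF, ⟨g⁻¹, M.inv_mem hg, fun q => ?_⟩, fun w hw => ?_⟩
    · rw [show Subgroup.inclusion le_sup_left q = a (Subgroup.inclusion le_sup_left (g⁻¹ q)) from
        Subtype.ext (by rw [hge, MulAut.apply_inv_self]; rfl), MulAut.inv_apply_self]
      rfl
    · set d : Q := ⟨_, hac w hw⟩
      have e : a (w * Subgroup.inclusion le_sup_left (g⁻¹ d⁻¹)) = w := by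
        apply Subtype.ext
        rw [map_mul, Subgroup.coe_mul, hge, MulAut.apply_inv_self]
        simp [d]
      have e' : a⁻¹ w = w * Subgroup.inclusion le_sup_left (g⁻¹ d⁻¹) := by
        conv_lhs => rw [← e]
        rw [MulAut.inv_apply_self]
      rw [e', Subgroup.coe_mul, inv_mul_cancel_left]
      exact SetLike.coe_mem _

theorem mem_liftGroup {Q : Subgroup Ω} {M : Subgroup (MulAut Q)}
    {γ : MulAut (Q ⊔ centralizerIn S Q : Subgroup Ω)} :
    γ ∈ liftGroup F Q M ↔ IsLift F Q M γ := Iff.rfl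

variable [Finite S]

theorem lift_move {Q : Subgroup Ω} {M : Subgroup (MulAut Q)}
    {γ : MulAut (Q ⊔ centralizerIn S Q : Subgroup Ω)} (hγ : γ ∈ liftGroup F Q M)
    (hQS : Q ≤ S) (w : (Q ⊔ centralizerIn S Q : Subgroup Ω)) (hw : (w : Ω) ∈ centralizerIn S Q) :
    ∃ z ∈ Q ⊓ centralizerIn S Q,
      ((γ w : (Q ⊔ centralizerIn S Q : Subgroup Ω)) : Ω) = w * z := by
  obtain ⟨hF, ⟨g, hg, hge⟩, hc⟩ := hγ
  have hN : Q ⊔ centralizerIn S Q ≤ S := sup_le hQS (centralizerIn_le Q)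
  obtain ⟨f, hf, hfe, -⟩ := exists_mor_of_aut hN ⟨γ, hF⟩
  have : Finite Q := finite_of_le hQS
  have hfQ : f '' (Q : Set Ω) = Q := image_eq (hf.restrict le_sup_left) fun q hq => by
    rw [show f q = _ from hfe (Subgroup.inclusion le_sup_left ⟨q, hq⟩), hge]
    exact SetLike.coe_mem _
  refine ⟨_, ⟨hc w hw, Subgroup.mul_mem _ (Subgroup.inv_mem _ hw) ?_⟩,
    (mul_inv_cancel_left (w : Ω) _).symm⟩
  show ((γ w : (Q ⊔ centralizerIn S Q : Subgroup Ω)) : Ω) ∈ centralizerIn S Q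
  rw [← hfe w]
  exact map_centralizerIn hf le_sup_left hfQ w.2 hw

/-- Lifts fix the commutators of `C_S(Q)`. -/
theorem lift_fix_comm {Q : Subgroup Ω} {M : Subgroup (MulAut Q)}
    {γ : MulAut (Q ⊔ centralizerIn S Q : Subgroup Ω)} (hγ : γ ∈ liftGroup F Q M) (hQS : Q ≤ S)
    (u w : (Q ⊔ centralizerIn S Q : Subgroup Ω)) (hu : (u : Ω) ∈ centralizerIn S Q)
    (hw : (w : Ω) ∈ centralizerIn S Q) :
    γ (u⁻¹ * (w * u * w⁻¹)) = u⁻¹ * (w * u * w⁻¹) := by
  obtain ⟨a, ha, hae⟩ := lift_move hγ hQS u hu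
  obtain ⟨b, hb, hbe⟩ := lift_move hγ hQS w hw
  apply Subtype.ext
  rw [map_mul, map_inv, map_mul, map_mul, map_inv]
  simp only [Subgroup.coe_mul, InvMemClass.coe_inv, hae, hbe]
  rw [centralizer_comm_conj hb.1 (Subgroup.mul_mem _ hu ha.2)]
  have h1 : a * (w : Ω)⁻¹ = (w : Ω)⁻¹ * a := comm_of_mem ha.1 (Subgroup.inv_mem _ hw)
  have h2 : (w : Ω) * ((u : Ω) * a) * (w : Ω)⁻¹ = (w : Ω) * u * (w : Ω)⁻¹ * a := by
    rw [show (w : Ω) * ((u : Ω) * a) * (w : Ω)⁻¹ = (w : Ω) * u * (a * (w : Ω)⁻¹) by group, h1]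
    group
  rw [h2, mul_inv_rev]
  have hc : (u : Ω)⁻¹ * ((w : Ω) * u * (w : Ω)⁻¹) ∈ centralizerIn S Q :=
    Subgroup.mul_mem _ (Subgroup.inv_mem _ hu)
      (Subgroup.mul_mem _ (Subgroup.mul_mem _ hw hu) (Subgroup.inv_mem _ hw))
  calc a⁻¹ * (u : Ω)⁻¹ * ((w : Ω) * u * (w : Ω)⁻¹ * a)
      = a⁻¹ * ((u : Ω)⁻¹ * ((w : Ω) * u * (w : Ω)⁻¹) * a) := by group
    _ = a⁻¹ * (a * ((u : Ω)⁻¹ * ((w : Ω) * u * (w : Ω)⁻¹))) := by rw [comm_of_mem ha.1 hc]
    _ = _ := by group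

variable [Fact p.Prime]

/-- A lift of the identity is conjugation by an element of `C_S(Q)`. -/
theorem lift_kernel_inner (hS : IsPGroup p S) (hF : F.IsSaturated p) {Q : Subgroup Ω}
    (hfc : F.IsFullyCentralized Q) {M : Subgroup (MulAut Q)}
    {γ : MulAut (Q ⊔ centralizerIn S Q : Subgroup Ω)} (hγ : γ ∈ liftGroup F Q M)
    (hQ : ∀ q : Q, ((γ (Subgroup.inclusion le_sup_left q) :
      (Q ⊔ centralizerIn S Q : Subgroup Ω)) : Ω) = q) :
    ∃ w : (Q ⊔ centralizerIn S Q : Subgroup Ω), (w : Ω) ∈ centralizerIn S Q ∧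
      ∀ y, γ y = w * y * w⁻¹ := by
  have hQS := hfc.1
  have hWS : (centralizerIn S Q) ≤ S := centralizerIn_le Q
  have hN₀S : Q ⊔ (centralizerIn S Q) ≤ S := sup_le hQS hWS
  obtain ⟨f, hf, hfe, -⟩ := exists_mor_of_aut hN₀S ⟨γ, hγ.1⟩
  have hfQ : ∀ q ∈ Q, f q = q := fun q hq => by
    rw [show f q = _ from hfe (Subgroup.inclusion le_sup_left ⟨q, hq⟩)]
    exact hQ ⟨q, hq⟩
  have hfW : ∀ w ∈ (centralizerIn S Q), f w ∈ (centralizerIn S Q) := fun w hw => by
    obtain ⟨z, hz, hze⟩ := lift_move hγ hQS ⟨w, Subgroup.mem_sup_right hw⟩ hw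
    rw [show f w = _ from hfe ⟨w, Subgroup.mem_sup_right hw⟩, hze]
    exact Subgroup.mul_mem _ hw hz.2
  obtain ⟨⟨k, hkF⟩, hk⟩ := exists_aut hf le_sup_right hfW
  set D := centralizerSystem F Q hQS
  have hWp : IsPGroup p (centralizerIn S Q) := hS.to_le hWS
  have : Finite (centralizerIn S Q) := finite_of_le hWS
  have hkD : k ∈ D.autGroup (centralizerIn S Q) := by
    refine mem_autGroup_of_mem D ⟨(mem_autGroup_iff F hWS).1 hkF, le_rfl,
      fun w => SetLike.coe_mem _, ?_⟩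
    obtain ⟨χ, hχ, e⟩ := hf.restrict (M := (centralizerIn S Q) ⊔ Q) (by rw [sup_comm])
    exact ⟨χ, hχ, fun w => (e _).trans (hk w).symm, fun q => (e _).trans (hfQ q q.2)⟩
  have := finite_mulAut (centralizerIn S Q)
  let I : Subgroup (D.autGroup (centralizerIn S Q)) :=
    { carrier := {k | ∀ w : (centralizerIn S Q), (w : Ω)⁻¹ * (((k : MulAut (centralizerIn S Q)) w : (centralizerIn S Q)) : Ω) ∈ Q}
      one_mem' := fun w => by simp
      mul_mem' := fun {k l} hk hl w => by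
        have h2 := Q.mul_mem (hl w) (hk ((l : MulAut (centralizerIn S Q)) w))
        rw [mul_assoc, mul_inv_cancel_left] at h2
        exact h2
      inv_mem' := fun {k} hk w => by
        have h1 := Q.inv_mem (hk ((k : MulAut (centralizerIn S Q))⁻¹ w))
        rw [MulAut.apply_inv_self, mul_inv_rev, inv_inv] at h1
        exact h1 }
  have hfix : ∀ (l : D.autGroup (centralizerIn S Q)) (w : (centralizerIn S Q)), (w : Ω) ∈ Q → (l : MulAut (centralizerIn S Q)) w = w := by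
    intro l w hw
    obtain ⟨-, -, -, ψ', -, hW', hQ'⟩ := (mem_autGroup_iff D le_rfl).1 l.2
    exact Subtype.ext ((hW' w).symm.trans (hQ' ⟨w, hw⟩))
  have hIn : I.Normal := by
    refine ⟨fun k hk g w => ?_⟩
    set u : (centralizerIn S Q) := ((g : MulAut (centralizerIn S Q))⁻¹ w)
    have h2 : (g : MulAut (centralizerIn S Q)) u = w := MulAut.apply_inv_self _ _ _
    have h1 := hfix g (u⁻¹ * (k : MulAut (centralizerIn S Q)) u) (hk u)
    rw [map_mul, map_inv, h2] at h1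
    have h3 := congrArg Subtype.val h1
    simp only [Subgroup.coe_mul, InvMemClass.coe_inv] at h3
    show (w : Ω)⁻¹ * (((g : MulAut (centralizerIn S Q)) ((k : MulAut (centralizerIn S Q)) u) : (centralizerIn S Q)) : Ω) ∈ Q
    rw [h3]
    exact hk u
  have hIp : IsPGroup p I := by
    intro k
    obtain ⟨i, hi⟩ := IsPGroup.iff_card.1 hWp
    refine ⟨i, Subtype.ext (Subtype.ext (MulEquiv.ext fun w => ?_))⟩
    set m : MulAut (centralizerIn S Q) := ((k : D.autGroup (centralizerIn S Q)) : MulAut (centralizerIn S Q))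
    set z : (centralizerIn S Q) := w⁻¹ * m w
    have hfz : m z = z := hfix _ z (k.2 w)
    have h1 : ∀ j : ℕ, (m ^ j) w = w * z ^ j := by
      intro j
      induction j with
      | zero => simp
      | succ j ih =>
        rw [pow_succ', MulAut.mul_apply, ih, map_mul, map_pow, hfz, pow_succ', ← mul_assoc,
          show m w = w * z from (mul_inv_cancel_left w _).symm]
    show (m ^ p ^ i) w = w
    rw [h1, ← hi, pow_card_eq_one', mul_one]
  have hkI : (⟨k, hkD⟩ : D.autGroup (centralizerIn S Q)) ∈ I := fun w => by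
    show (w : Ω)⁻¹ * ((k w : (centralizerIn S Q)) : Ω) ∈ Q
    rw [hk w, show f w = _ from hfe ⟨w, Subgroup.mem_sup_right w.2⟩]
    exact hγ.2.2 ⟨w, Subgroup.mem_sup_right w.2⟩ w.2
  have hinn : k ∈ Cfsg.Inn (centralizerIn S Q) := by
    rw [← (Fusion.Alperin.radical_top hWp (centralizerSystem_saturated hS hF hfc)).2]
    exact ⟨⟨k, hkD⟩, CharP.le_pCore hIn hIp hkI, rfl⟩
  rw [inn_eq_autInducedBy_self, mem_autInducedBy_iff] at hinn
  obtain ⟨w₀, hw₀, hkw⟩ := hinn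
  refine ⟨⟨w₀, Subgroup.mem_sup_right hw₀⟩, hw₀, fun y => Subtype.ext ?_⟩
  rw [← hfe y]
  exact mor_eqOn_sup (A := Q) (B := (centralizerIn S Q)) hf (mor_conj hN₀S (hWS hw₀)) le_rfl
    (fun q hq => by rw [hfQ q hq, ← hw₀.2 q hq, mul_inv_cancel_right])
    (fun w hw => (hk ⟨w, hw⟩).symm.trans (hkw ⟨w, hw⟩)) y y.2

end CfsgLib.OddVanish
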