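import Mathlib.GroupTheory.Sylow
import Mathlib.GroupTheory.IndexNormal
import Mathlib.GroupTheory.GroupAction.Quotient
import Cfsg.Agent.Fus.Extension

/-!
Fixed points of a Sylow normalizer are fixed points when the Sylow subgroup contains a weakly closed
family of quadratically acting subgroups (`p` odd), and the solution of a cocycle equation by
averaging.
-/

set_option autoImplicit false

namespace CfsgLib.OddVanish

variable {M V : Type*} [Group M] [Finite M] [CommGroup V] {p : ℕ} [Fact p.Prime]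
  (φ : M →* MulAut V)

/-- Quadratic action of an element. -/
def Quad (a : M) : Prop := ∀ w : V, φ a (φ a w / w) = φ a w / w

omit [Finite M] in
theorem Quad.conj {a : M} (ha : Quad φ a) (h : M) : Quad φ (h * a * h⁻¹) := by
  intro w
  have e : ∀ u : V, φ (h * a * h⁻¹) u = φ h (φ a (φ h⁻¹ u)) := fun u => by
    simp only [map_mul, MulAut.mul_apply]
  have e' : ∀ u : V, φ h⁻¹ (φ h u) = u := fun u => by
    rw [map_inv, MulAut.inv_apply_self]
  have e'' : ∀ u : V, φ h (φ h⁻¹ u) = u := fun u => by
    rw [map_inv, MulAut.apply_inv_self]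
  rw [e, e]
  conv_lhs => rw [map_div (φ h⁻¹), e']
  rw [ha, map_div, e'']

omit [Finite M] in
theorem prod_shift_eq {a : M} (ha : Quad φ a) {w n : V} (hw : w ^ p = n) (hp : p ≠ 2)
    (hn : (φ a w) ^ p = n) :
    ∏ j ∈ Finset.range p, φ (a ^ j) w = w ^ p := by
  set e : V := φ a w / w with he
  have hje : ∀ j : ℕ, φ (a ^ j) w = w * e ^ j := by
    intro j
    induction j with
    | zero => simp
    | succ j ih =>
      rw [pow_succ', map_mul, MulAut.mul_apply, ih, map_mul, map_pow, ha, pow_succ', ← mul_assoc]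
      simp [he]
  have hep : e ^ p = 1 := by rw [he, div_pow, hw, hn, div_self']
  simp only [hje]
  rw [Finset.prod_mul_distrib, Finset.prod_const, Finset.card_range, Finset.prod_pow_eq_pow_sum]
  have hdvd : p ∣ ∑ j ∈ Finset.range p, j := by
    rw [Finset.sum_range_id]
    obtain ⟨k, hk⟩ : 2 ∣ p - 1 := by
      have h1 := (Fact.out : p.Prime).odd_of_ne_two hp
      obtain ⟨k, hk⟩ := h1
      exact ⟨k, by omega⟩
    rw [hk, mul_left_comm, Nat.mul_div_cancel_left _ two_pos]
    exact dvd_mul_right p k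
  obtain ⟨k, hk⟩ := hdvd
  rw [hk, pow_mul, hep, one_pow, mul_one]

open scoped Classical in
/-- A product over an orbit of a `p`-subgroup containing a quadratic element that moves the point. -/
theorem prod_orbit {X : Type*} [MulAction M X] (f : X → V)
    (heq : ∀ (g : M) (q : X), f (g • q) = φ g (f q)) {n : V} (hpow : ∀ q : X, f q ^ p = n)
    (hp : p ≠ 2) :
    ∀ (d : ℕ) (H : Subgroup M) (_ : Nat.card H ≤ d) (_ : IsPGroup p H) (q : X) (a : M)
      (_ : a ∈ H) (_ : Quad φ a) (_ : φ a (f q) ≠ f q),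
      ∃ s : Finset X, (∀ x, x ∈ s ↔ ∃ h ∈ H, h • q = x) ∧ p ∣ s.card ∧
        ∏ x ∈ s, f x = n ^ (s.card / p) := by
  intro d
  induction d with
  | zero =>
    intro H hd
    exact absurd hd (by have : 0 < Nat.card H := Nat.card_pos; omega)
  | succ d ih =>
    intro H hd hH q a haH haq hmove
    obtain ⟨i, hi⟩ := IsPGroup.iff_card.1 hH
    set R : Subgroup H := (MulAction.stabilizer M q).subgroupOf H with hR
    have haR : (⟨a, haH⟩ : H) ∉ R := fun h => hmove (by
      have h' : a • q = q := h
      conv_rhs => rw [← h']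
      rw [heq])
    obtain ⟨m, hm⟩ := IsPGroup.iff_card.1 (hH.to_subgroup R)
    have hmi : m < i := by
      by_contra hc
      have h1 : R = ⊤ := Subgroup.eq_top_of_card_eq _ (le_antisymm
        (Subgroup.card_le_card_group R)
        (by rw [hm, hi]; exact Nat.pow_le_pow_right (Fact.out : p.Prime).pos (by omega)))
      exact haR (h1 ▸ Subgroup.mem_top _)
    obtain ⟨i, rfl⟩ : ∃ i', i = i' + 1 := ⟨i - 1, by omega⟩
    obtain ⟨K₀, hK₀, hRK⟩ := Sylow.exists_subgroup_card_pow_prime_le (G := H) p
      (m := i) (by rw [hi]; exact pow_dvd_pow p (Nat.le_succ i)) R hm (by omega)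
    have hidx : K₀.index = p := by
      have h1 := K₀.card_mul_index
      rw [hK₀, hi, pow_succ] at h1
      exact Nat.eq_of_mul_eq_mul_left (pow_pos (Fact.out : p.Prime).pos i) h1
    have hKn : K₀.Normal := Subgroup.normal_of_index_eq_minFac_card (by
      rw [hidx, hi, Nat.pow_minFac (Nat.succ_ne_zero i), (Fact.out : p.Prime).minFac_eq])
    set K : Subgroup M := K₀.map H.subtype with hK
    have hKH : K ≤ H := Subgroup.map_subtype_le _
    have hKn' : ∀ h ∈ H, ∀ k ∈ K, h * k * h⁻¹ ∈ K := by
      rintro h hh _ ⟨k, hk, rfl⟩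
      exact ⟨⟨h, hh⟩ * k * ⟨h, hh⟩⁻¹, hKn.conj_mem k hk _, rfl⟩
    have hKp : IsPGroup p K := (hH.to_le hKH)
    have hKd : Nat.card K ≤ d := by
      rw [hK, Subgroup.card_subtype, hK₀]
      have h1 : p ^ i < p ^ (i + 1) := Nat.pow_lt_pow_right (Fact.out : p.Prime).one_lt (by omega)
      omega
    -- an element outside `K`, chosen as `a` when possible
    obtain ⟨b, hbH, hb₀, hab⟩ : ∃ b, ∃ hbH : b ∈ H, (⟨b, hbH⟩ : H) ∉ K₀ ∧
        ((⟨a, haH⟩ : H) ∈ K₀ ∨ b = a) := by
      by_cases ha : (⟨a, haH⟩ : H) ∈ K₀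
      · have h1 : K₀ ≠ ⊤ := fun h => (Fact.out : p.Prime).ne_one (by rw [← hidx, h, Subgroup.index_top])
        obtain ⟨b, -, hb⟩ := SetLike.exists_of_lt (lt_top_iff_ne_top.2 h1)
        exact ⟨b, b.2, hb, Or.inl ha⟩
      · exact ⟨a, haH, ha, Or.inr rfl⟩
    set b' : H := ⟨b, hbH⟩ with hb'
    set π := QuotientGroup.mk' K₀
    have hcardq : Nat.card (H ⧸ K₀) = p := hidx
    have hπb : π b' ≠ 1 := fun h => hb₀ ((QuotientGroup.eq_one_iff b').1 h)
    have hord : orderOf (π b') = p := by
      refine orderOf_eq_prime ?_ hπb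
      rw [← hcardq]
      exact pow_card_eq_one'
    have hgen : ∀ y : H ⧸ K₀, ∃ j < p, π b' ^ j = y := by
      intro y
      obtain ⟨z, hz⟩ := (mem_zpowers_of_prime_card (G := H ⧸ K₀) (g' := y) hcardq hπb)
      obtain ⟨j, hj⟩ : ∃ j : ℕ, π b' ^ j = y :=
        Submonoid.mem_powers_iff _ _ |>.1 (mem_powers_iff_mem_zpowers.2 ⟨z, hz⟩)
      refine ⟨j % p, Nat.mod_lt _ (Fact.out : p.Prime).pos, ?_⟩
      rw [← hord, pow_mod_orderOf, hj]
    -- the orbit of `K`
    have hKfin : {x : X | ∃ k ∈ K, k • q = x}.Finite := (Set.toFinite (K : Set M)).image (· • q)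
    set sK : Finset X := hKfin.toFinset with hsK
    have hfin : ∀ x, x ∈ sK ↔ ∃ k ∈ K, k • q = x := fun x => by simp [hsK]
    have hdisj : Set.PairwiseDisjoint (↑(Finset.range p) : Set ℕ)
        (fun j => sK.image (fun x => (b ^ j) • x)) := by
      intro j hj l hl hjl
      refine Finset.disjoint_left.2 fun x hx hx' => hjl ?_
      obtain ⟨_, hy, rfl⟩ := Finset.mem_image.1 hx
      obtain ⟨k, hk, rfl⟩ := (hfin _).1 hy
      obtain ⟨_, hy', he⟩ := Finset.mem_image.1 hx'
      obtain ⟨k', hk', rfl⟩ := (hfin _).1 hy'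
      rw [smul_smul, smul_smul] at he
      have hst : (b ^ j * k)⁻¹ * (b ^ l * k') ∈ MulAction.stabilizer M q := by
        rw [MulAction.mem_stabilizer_iff, mul_smul, he, inv_smul_smul]
      obtain ⟨k₀, hk₀, rfl⟩ := hk
      obtain ⟨k₁, hk₁, rfl⟩ := hk'
      have h1 : (b' ^ j * k₀)⁻¹ * (b' ^ l * k₁) ∈ K₀ := hRK (by
        rw [hR, Subgroup.mem_subgroupOf]
        simpa [hb'] using hst)
      have h2 : π b' ^ j = π b' ^ l := by
        have h3 : π ((b' ^ j * k₀)⁻¹ * (b' ^ l * k₁)) = 1 := (QuotientGroup.eq_one_iff _).2 h1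
        have hk0 : π k₀ = 1 := (QuotientGroup.eq_one_iff _).2 hk₀
        have hk1 : π k₁ = 1 := (QuotientGroup.eq_one_iff _).2 hk₁
        simp only [map_mul, map_inv, map_pow, hk0, hk1, mul_one, mul_inv_rev, inv_one,
          one_mul] at h3
        exact inv_mul_eq_one.1 h3
      rw [pow_eq_pow_iff_modEq, hord] at h2
      have h4 : j % p = l % p := h2
      rwa [Nat.mod_eq_of_lt (Finset.mem_range.1 hj), Nat.mod_eq_of_lt (Finset.mem_range.1 hl)] at h4
    set s : Finset X := (Finset.range p).biUnion (fun j => sK.image (fun x => (b ^ j) • x)) with hs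
    have hinj : ∀ j : ℕ, Set.InjOn (fun x : X => (b ^ j) • x) sK :=
      fun j x _ y _ h => MulAction.injective (b ^ j) h
    have hcard : s.card = p * sK.card := by
      rw [hs, Finset.card_biUnion hdisj,
        Finset.sum_congr rfl (fun j _ => Finset.card_image_of_injOn (hinj j)), Finset.sum_const,
        Finset.card_range, smul_eq_mul]
    refine ⟨s, fun x => ?_, hcard ▸ dvd_mul_right p _, ?_⟩
    · simp only [hs, Finset.mem_biUnion, Finset.mem_range, Finset.mem_image, hfin]
      constructor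
      · rintro ⟨j, -, _, ⟨k, hk, rfl⟩, rfl⟩
        exact ⟨b ^ j * k, H.mul_mem (H.pow_mem hbH j) (hKH hk), (smul_smul _ _ _).symm⟩
      · rintro ⟨h, hh, rfl⟩
        obtain ⟨j, hj, hje⟩ := hgen (π ⟨h, hh⟩)
        have h1 : (b' ^ j)⁻¹ * ⟨h, hh⟩ ∈ K₀ := (QuotientGroup.eq_one_iff _).1 (by
          show π ((b' ^ j)⁻¹ * ⟨h, hh⟩) = 1
          rw [map_mul, map_inv, map_pow, hje, inv_mul_cancel])
        refine ⟨j, hj, _, ⟨_, ⟨_, h1, rfl⟩, rfl⟩, ?_⟩
        rw [smul_smul]
        congr 1
        simp [hb']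
    · rw [hcard, Nat.mul_div_cancel_left _ (Fact.out : p.Prime).pos, hs,
        Finset.prod_biUnion hdisj]
      have hj : ∀ j : ℕ, ∏ x ∈ sK.image (fun x => (b ^ j) • x), f x =
          φ (b ^ j) (∏ x ∈ sK, f x) := fun j => by
        rw [Finset.prod_image (hinj j), map_prod]
        exact Finset.prod_congr rfl fun x _ => heq _ _
      rcases hab with ha | rfl
      · -- every translate of the orbit of `K` is moved by a conjugate of `a` inside `K`
        have hK' : ∀ j : ℕ, ∏ x ∈ sK.image (fun x => (b ^ j) • x), f x = n ^ (sK.card / p) ∧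
            p ∣ sK.card := by
          intro j
          have haK : b ^ j * a * (b ^ j)⁻¹ ∈ K := hKn' _ (H.pow_mem hbH j) _ ⟨_, ha, rfl⟩
          obtain ⟨t, ht, htp, htprod⟩ := ih K hKd hKp ((b ^ j) • q) _ haK (haq.conj φ _) (by
            rw [heq, map_mul, map_mul, MulAut.mul_apply, MulAut.mul_apply, map_inv,
              MulAut.inv_apply_self]
            exact fun h => hmove ((φ (b ^ j)).injective h))
          have hte : sK.image (fun x => (b ^ j) • x) = t := by
            ext x
            rw [Finset.mem_image, ht]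
            constructor
            · rintro ⟨_, hy, rfl⟩
              obtain ⟨k, hk, rfl⟩ := (hfin _).1 hy
              refine ⟨b ^ j * k * (b ^ j)⁻¹, hKn' _ (H.pow_mem hbH j) _ hk, ?_⟩
              rw [smul_smul, smul_smul, inv_mul_cancel_right]
            · rintro ⟨k, hk, rfl⟩
              refine ⟨((b ^ j)⁻¹ * k * (b ^ j)) • q, (hfin _).2 ⟨_, ?_, rfl⟩, ?_⟩
              · have h1 := hKn' _ (H.inv_mem (H.pow_mem hbH j)) _ hk
                rwa [inv_inv] at h1
              · rw [smul_smul, smul_smul, mul_assoc, mul_inv_cancel_left]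
          have hc : t.card = sK.card := by rw [← hte, Finset.card_image_of_injOn (hinj j)]
          rw [hte]
          exact ⟨by rw [htprod, hc], hc ▸ htp⟩
        obtain ⟨k, hk⟩ := (hK' 0).2
        rw [Finset.prod_congr rfl fun j _ => (hK' j).1, Finset.prod_const, Finset.card_range,
          ← pow_mul, hk, Nat.mul_div_cancel_left _ (Fact.out : p.Prime).pos, mul_comm]
      · rw [Finset.prod_congr rfl fun j _ => hj j]
        have hu : (∏ x ∈ sK, f x) ^ p = n ^ sK.card := by
          rw [← Finset.prod_pow, Finset.prod_congr rfl fun x _ => hpow x, Finset.prod_const]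
        rw [prod_shift_eq φ haq hu hp, hu]
        rw [map_prod, ← Finset.prod_pow, Finset.prod_congr rfl fun x _ =>
          (show φ b (f x) ^ p = n by rw [← heq, hpow]), Finset.prod_const]

/-- Fixed points of the normalizer of a weakly closed family of quadratic subgroups are fixed. -/
theorem fixed_of_quadratic (hV : IsPGroup p V) (hp : p ≠ 2) (U : Sylow p M)
    (𝒜 : Set (Subgroup M)) (hsub : ∀ B ∈ 𝒜, B ≤ (U : Subgroup M))
    (hquad : ∀ B ∈ 𝒜, ∀ a ∈ B, Quad φ a)
    (hweak : ∀ B ∈ 𝒜, ∀ g : M, B.map (MulAut.conj g).toMonoidHom ≤ (U : Subgroup M) →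
      B.map (MulAut.conj g).toMonoidHom ∈ 𝒜)
    (v : V) (hU : ∀ u ∈ (U : Subgroup M), φ u v = v)
    (hN : ∀ g : M, (∀ B ∈ 𝒜, B.map (MulAut.conj g).toMonoidHom ∈ 𝒜) → φ g v = v) :
    ∀ g : M, φ g v = v := by
  classical
  induction hd : orderOf v using Nat.strong_induction_on generalizing v with
  | _ d ih =>
    intro g
    subst hd
    by_cases hv1 : v = 1
    · rw [hv1, map_one]
    obtain ⟨k, hk⟩ := hV v
    obtain ⟨i, -, hi⟩ := (Nat.dvd_prime_pow (Fact.out : p.Prime)).1 (orderOf_dvd_of_pow_eq_one hk)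
    obtain ⟨i, rfl⟩ : ∃ i', i = i' + 1 := ⟨i - 1, by
      have : i ≠ 0 := fun h => hv1 (orderOf_eq_one_iff.1 (by rw [hi, h, pow_zero]))
      omega⟩
    have hlt : orderOf (v ^ p) < orderOf v := by
      rw [orderOf_pow_of_dvd (Fact.out : p.Prime).ne_zero (by rw [hi]; exact dvd_pow_self p (by omega)),
        hi]
      exact Nat.div_lt_self (pow_pos (Fact.out : p.Prime).pos _) (Fact.out : p.Prime).one_lt
    have hpw : ∀ g : M, φ g (v ^ p) = v ^ p := ih _ hlt (v ^ p)
      (fun u hu => by rw [map_pow, hU u hu]) (fun g hg => by rw [map_pow, hN g hg]) rfl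
    -- the coset function
    let X := M ⧸ (U : Subgroup M)
    have : Fintype X := Fintype.ofFinite X
    let f : X → V := Quotient.lift (fun g => φ g v) (fun a b hab => by
      replace hab : a⁻¹ * b ∈ (U : Subgroup M) := QuotientGroup.leftRel_apply.1 hab
      show φ a v = φ b v
      conv_rhs => rw [show b = a * (a⁻¹ * b) from (mul_inv_cancel_left a b).symm, map_mul,
        MulAut.mul_apply, hU _ hab])
    have hf : ∀ g : M, f (QuotientGroup.mk g) = φ g v := fun g => rfl
    have heq : ∀ (g : M) (q : X), f (g • q) = φ g (f q) := by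
      intro g q
      induction q using QuotientGroup.induction_on with
      | _ x =>
        show f (QuotientGroup.mk (g * x)) = _
        rw [hf, hf, map_mul, MulAut.mul_apply]
    have hpow : ∀ q : X, f q ^ p = v ^ p := fun q => by
      induction q using QuotientGroup.induction_on with
      | _ x => rw [hf, ← map_pow, hpw]
    -- a point fixed by all members of the family has value `v`
    have hclaimA : ∀ x : M, (∀ B ∈ 𝒜, ∀ a ∈ B, φ a (φ x v) = φ x v) → φ x v = v := by
      intro x hx
      let St : Subgroup M :=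
        { carrier := {g | φ g v = v}
          one_mem' := by simp
          mul_mem' := fun {a b} (ha : φ a v = v) (hb : φ b v = v) => by
            show φ (a * b) v = v
            rw [map_mul, MulAut.mul_apply, hb, ha]
          inv_mem' := fun {a} (ha : φ a v = v) => by
            show φ a⁻¹ v = v
            conv_lhs => rw [← ha]
            rw [map_inv, MulAut.inv_apply_self] }
      let R : Subgroup M := ((U : Subgroup M) ⊓ St.map (MulAut.conj x).toMonoidHom)
      have hBR : ∀ B ∈ 𝒜, B ≤ R := fun B hB a ha => ⟨hsub B hB ha, x⁻¹ * a * x, by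
        show φ (x⁻¹ * a * x) v = v
        rw [map_mul, map_mul, MulAut.mul_apply, MulAut.mul_apply, hx B hB a ha, map_inv,
          MulAut.inv_apply_self], by show x * (x⁻¹ * a * x) * x⁻¹ = a; group⟩
      have hUSt : (U : Subgroup M) ≤ St := fun u hu => hU u hu
      have hR' : IsPGroup p (((R.map (MulAut.conj x⁻¹).toMonoidHom)).subgroupOf St) :=
        ((U.isPGroup'.to_le inf_le_left).map _).comap_of_injective _ (Subgroup.subtype_injective _)
      obtain ⟨m, hm⟩ := CfsgLib.Fus.exists_conj_mem_sylow (U.subtype hUSt) hR'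
      have hh : ∀ B ∈ 𝒜, B.map (MulAut.conj ((m : M) * x⁻¹)).toMonoidHom ∈ 𝒜 := by
        intro B hB
        refine hweak B hB _ ?_
        rintro _ ⟨a, ha, rfl⟩
        obtain ⟨s, hs, hsa⟩ := (hBR B hB ha).2
        have hmem : x⁻¹ * a * x⁻¹⁻¹ ∈ St := by
          rw [← hsa]
          show x⁻¹ * (x * s * x⁻¹) * x⁻¹⁻¹ ∈ St
          rw [show x⁻¹ * (x * s * x⁻¹) * x⁻¹⁻¹ = s by group]
          exact hs
        have h1 : ((m * ⟨_, hmem⟩ * m⁻¹ : St) : M) ∈ (U : Subgroup M) :=
          hm ⟨_, hmem⟩ ⟨a, hBR B hB ha, rfl⟩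
        show (m : M) * x⁻¹ * a * ((m : M) * x⁻¹)⁻¹ ∈ (U : Subgroup M)
        convert h1 using 1
        simp only [Subgroup.coe_mul, InvMemClass.coe_inv]
        group
      have h2 := hN _ hh
      rw [map_mul, MulAut.mul_apply] at h2
      have h3 : φ x⁻¹ v = v := (φ (m : M)).injective (h2.trans m.2.symm)
      conv_lhs => rw [← h3]
      rw [map_inv, MulAut.apply_inv_self]
    -- products over invariant sets
    have hprod : ∀ (c : ℕ) (s : Finset X), s.card ≤ c →
        (∀ u ∈ (U : Subgroup M), ∀ q ∈ s, u • q ∈ s) → ∏ q ∈ s, f q = v ^ s.card := by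
      intro c
      induction c with
      | zero =>
        intro s hs _
        rw [Finset.card_eq_zero.1 (Nat.le_zero.1 hs)]
        simp
      | succ c ihc =>
        intro s hs hinv
        by_cases hall : ∀ q ∈ s, f q = v
        · rw [Finset.prod_congr rfl hall, Finset.prod_const]
        simp only [not_forall] at hall
        obtain ⟨q, hq, hqv⟩ := hall
        obtain ⟨B, hB, a, ha, hmove⟩ : ∃ B ∈ 𝒜, ∃ a ∈ B, φ a (f q) ≠ f q := by
          by_contra hcon
          simp only [not_exists, not_and, ne_eq, not_not] at hcon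
          induction q using QuotientGroup.induction_on with
          | _ x => exact hqv (hclaimA x fun B hB a ha => hcon B hB a ha)
        obtain ⟨t, ht, htp, htprod⟩ := prod_orbit φ f heq hpow hp _ _ le_rfl U.isPGroup' q a
          (hsub B hB ha) (hquad B hB a ha) hmove
        have hts : t ⊆ s := fun y hy => by
          obtain ⟨h, hh, rfl⟩ := (ht y).1 hy
          exact hinv h hh q hq
        have hqt : q ∈ t := (ht q).2 ⟨1, Subgroup.one_mem _, one_smul _ _⟩
        have htpos : 0 < t.card := Finset.card_pos.2 ⟨q, hqt⟩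
        have hrest : ∏ y ∈ s \ t, f y = v ^ (s \ t).card := by
          refine ihc _ ?_ fun u hu y hy => ?_
          · rw [Finset.card_sdiff_of_subset hts]
            omega
          · rw [Finset.mem_sdiff] at hy ⊢
            refine ⟨hinv u hu y hy.1, fun hc => hy.2 ?_⟩
            obtain ⟨h, hh, he⟩ := (ht _).1 hc
            exact (ht y).2 ⟨u⁻¹ * h, Subgroup.mul_mem _ (Subgroup.inv_mem _ hu) hh, by
              rw [mul_smul, he, inv_smul_smul]⟩
        have htv : ∏ y ∈ t, f y = v ^ t.card := by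
          rw [htprod, ← pow_mul, Nat.mul_div_cancel' htp]
        rw [← Finset.prod_sdiff hts, hrest, htv, ← pow_add,
          Finset.card_sdiff_of_subset hts, Nat.sub_add_cancel (Finset.card_le_card hts)]
    have hσ := hprod _ Finset.univ le_rfl fun _ _ _ _ => Finset.mem_univ _
    have hfix : φ g (v ^ Fintype.card X) = v ^ Fintype.card X := by
      rw [← Finset.card_univ, ← hσ, map_prod]
      refine Finset.prod_bij (fun q _ => g • q) (fun _ _ => Finset.mem_univ _)
        (fun _ _ _ _ h => MulAction.injective g h)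
        (fun q _ => ⟨g⁻¹ • q, Finset.mem_univ _, smul_inv_smul g q⟩) fun q _ => (heq g q).symm
    have hidx : (Fintype.card X).Coprime p := by
      rw [← Nat.card_eq_fintype_card]
      exact ((Fact.out : p.Prime).coprime_iff_not_dvd.2 U.not_dvd_index).symm
    have hcop : Nat.Coprime (Fintype.card X) (orderOf v) := by
      rw [hi]; exact hidx.pow_right _
    obtain ⟨e, he⟩ := Nat.exists_mul_mod_eq_one_of_coprime hcop
      (by rw [hi]; exact Nat.one_lt_pow (by omega) (Fact.out : p.Prime).one_lt)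
    have hroot : (v ^ Fintype.card X) ^ e = v := by
      rw [← pow_mul, ← pow_mod_orderOf, he.2, pow_one]
    rw [← hroot, map_pow, hfix]

/-- A cocycle vanishing on a subgroup of index prime to `p` is inner, by averaging. -/
theorem exists_coboundary (hV : IsPGroup p V) [Finite V] (U : Subgroup M)
    (hidx : U.index.Coprime p) (c : M → V) (hc : ∀ g h, c (g * h) = c g * φ g (c h))
    (hcU : ∀ u ∈ U, c u = 1) :
    ∃ z : V, z ∈ Subgroup.closure (Set.range c) ∧ (∀ g, c g = z / φ g z) ∧
      ∀ u ∈ U, φ u z = z := by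
  classical
  have : Fintype (M ⧸ U) := Fintype.ofFinite _
  let f : M ⧸ U → V := Quotient.lift c (fun a b hab => by
    replace hab : a⁻¹ * b ∈ U := QuotientGroup.leftRel_apply.1 hab
    conv_rhs => rw [show b = a * (a⁻¹ * b) from (mul_inv_cancel_left a b).symm, hc, hcU _ hab,
      map_one, mul_one])
  set z₀ : V := ∏ q : M ⧸ U, f q with hz₀
  have hkey : ∀ g, φ g z₀ * c g ^ U.index = z₀ := by
    intro g
    have h1 : ∀ q : M ⧸ U, f (g • q) = c g * φ g (f q) := fun q => by
      induction q using QuotientGroup.induction_on with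
      | _ x => exact hc g x
    have h2 : z₀ = ∏ q : M ⧸ U, f (g • q) :=
      (Equiv.prod_comp (MulAction.toPerm g) f).symm
    conv_rhs => rw [h2, Finset.prod_congr rfl fun q _ => h1 q, Finset.prod_mul_distrib,
      Finset.prod_const, ← map_prod, ← hz₀]
    rw [mul_comm]
    congr 2
    rw [Finset.card_univ, ← Nat.card_eq_fintype_card]
    rfl
  obtain ⟨k, hk⟩ := IsPGroup.iff_card.1 hV
  obtain ⟨e, he⟩ : ∃ e : ℕ, ∀ w : V, (w ^ U.index) ^ e = w := by
    by_cases hk0 : k = 0
    · refine ⟨0, fun w => ?_⟩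
      have hsub : Subsingleton V := (Nat.card_eq_one_iff_unique.1 (by rw [hk, hk0, pow_zero])).1
      exact Subsingleton.elim _ _
    obtain ⟨e, he⟩ := Nat.exists_mul_mod_eq_one_of_coprime (hidx.pow_right k)
      (Nat.one_lt_pow hk0 (Fact.out : p.Prime).one_lt)
    refine ⟨e, fun w => ?_⟩
    have hw : w ^ p ^ k = 1 := by rw [← hk]; exact pow_card_eq_one'
    rw [← pow_mul, pow_eq_pow_mod (U.index * e) hw, he.2, pow_one]
  refine ⟨z₀ ^ e, ?_, fun g => ?_, fun u hu => ?_⟩
  · refine Subgroup.pow_mem _ (Subgroup.prod_mem _ fun q _ => ?_) e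
    induction q using QuotientGroup.induction_on with
    | _ x => exact Subgroup.subset_closure ⟨x, rfl⟩
  · rw [map_pow, ← div_pow]
    conv_rhs => rw [show z₀ / φ g z₀ = c g ^ U.index by
      rw [div_eq_iff_eq_mul, mul_comm]
      exact (hkey g).symm]
    rw [he]
  · rw [map_pow]
    congr 1
    have h := hkey u
    rwa [hcU u hu, one_pow, mul_one] at h

end CfsgLib.OddVanish
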